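import Mathlib
import Cfsg.Agent.Lib.helper20.Zipper
import Cfsg.Agent.Lib.helper1.Fitting
import Cfsg.Agent.Lib.helper7.Subn

set_option autoImplicit false

namespace Cfsg.Agent.Lib.helper20

open Pointwise

universe u

/-- The Engel sequence `[x, g, g, …, g]` with `[a, b] = a b a⁻¹ b⁻¹`. -/
def engelSeq {G : Type*} [Group G] (g x : G) (n : ℕ) : G :=
  (List.replicate n g).foldl (fun a b => a * b * a⁻¹ * b⁻¹) x

section
variable {G : Type*} [Group G]

theorem engelSeq_zero (g x : G) : engelSeq g x 0 = x := rfl

theorem engelSeq_succ (g x : G) (n : ℕ) :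
    engelSeq g x (n + 1) = engelSeq g x n * g * (engelSeq g x n)⁻¹ * g⁻¹ := by
  unfold engelSeq
  rw [List.replicate_succ', List.foldl_append]
  rfl

theorem engelSeq_coe {K : Subgroup G} (g x : K) (n : ℕ) :
    ((engelSeq g x n : K) : G) = engelSeq (g : G) (x : G) n := by
  induction n with
  | zero => rfl
  | succ n ih => rw [engelSeq_succ, engelSeq_succ]; simp [ih]

theorem zpowers_isNilpotent (g : G) : Group.IsNilpotent (Subgroup.zpowers g) := by
  rw [Subgroup.isNilpotent_iff_lowerCentralSeries]
  refine ⟨1, ?_⟩
  rw [Subgroup.lowerCentralSeries_succ, Subgroup.lowerCentralSeries_zero,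
    Subgroup.commutator_eq_bot_iff_le_centralizer]
  intro a ha
  rw [Subgroup.mem_centralizer_iff]
  intro b hb
  obtain ⟨i, rfl⟩ := Subgroup.mem_zpowers_iff.mp ha
  obtain ⟨j, rfl⟩ := Subgroup.mem_zpowers_iff.mp hb
  exact (Commute.zpow_zpow_self g j i).eq

theorem isCoatom_conj_smul {M : Subgroup G} (hM : IsCoatom M) (y : G) :
    IsCoatom (MulAut.conj y • M) := by
  let f : Subgroup G ≃o Subgroup G :=
    { toFun := fun H => MulAut.conj y • H
      invFun := fun H => MulAut.conj y⁻¹ • H
      left_inv := fun H => by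
        have := conj_inv_smul_conj_smul y⁻¹ H
        rwa [inv_inv] at this
      right_inv := fun H => conj_inv_smul_conj_smul y H
      map_rel_iff' := Subgroup.pointwise_smul_le_pointwise_smul_iff }
  exact (OrderIso.isCoatom_iff f M).mpr hM

end

/-- A left Engel element of a finite group generates a subnormal subgroup. -/
theorem engel_subnormal_aux : ∀ (n : ℕ) (G : Type u) [Group G] [Finite G], Nat.card G = n →
    ∀ g : G, (∀ x : G, ∃ m, engelSeq g x m = 1) → (Subgroup.zpowers g).IsSubnormal := by
  intro n
  induction n using Nat.strong_induction_on with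
  | _ n ih =>
    intro G _ _ hn g hE
    by_contra hA
    have step1 : ∀ K : Subgroup G, Subgroup.zpowers g ≤ K → K ≠ ⊤ →
        ((Subgroup.zpowers g).subgroupOf K).IsSubnormal := by
      intro K hAK hK
      have hgK : g ∈ K := hAK (Subgroup.mem_zpowers g)
      have hKcard : Nat.card K < n := by
        rw [← hn]; exact Cfsg.Agent.Lib.helper3.card_lt_of_lt_top (lt_top_iff_ne_top.mpr hK)
      have h1 := ih _ hKcard K rfl ⟨g, hgK⟩ (by
        intro x
        obtain ⟨m, hm⟩ := hE x
        refine ⟨m, ?_⟩
        apply Subtype.ext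
        rw [engelSeq_coe]
        exact hm)
      have e : (Subgroup.zpowers g).subgroupOf K = Subgroup.zpowers (⟨g, hgK⟩ : K) := by
        ext y
        rw [Subgroup.mem_subgroupOf, Subgroup.mem_zpowers_iff, Subgroup.mem_zpowers_iff]
        constructor
        · rintro ⟨i, hi⟩
          exact ⟨i, Subtype.ext (by simpa using hi)⟩
        · rintro ⟨i, hi⟩
          exact ⟨i, by rw [← hi]; simp⟩
      rw [e]
      exact h1
    obtain ⟨M, hM, hAM, huniq⟩ := zipper _ hA step1
    have hgM : g ∈ M := hAM (Subgroup.mem_zpowers g)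
    -- a non-generating pair lies in `M`
    have key : ∀ x : G, Subgroup.closure ({g, x} : Set G) ≠ ⊤ → x ∈ M := by
      intro x hx
      obtain ⟨M', hM', hle⟩ := (eq_top_or_exists_le_coatom _).resolve_left hx
      have hgM' : g ∈ M' := hle (Subgroup.subset_closure (by simp))
      have := huniq M' hM' (by rw [Subgroup.zpowers_le]; exact hgM')
      rw [← this]
      exact hle (Subgroup.subset_closure (by simp))
    have hex : ∃ x₀ : G, Subgroup.closure ({g, x₀} : Set G) = ⊤ := by
      by_contra hc
      simp only [not_exists] at hc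
      apply hM.1
      rw [eq_top_iff]
      intro x _
      exact key x (hc x)
    obtain ⟨x₀, hx₀⟩ := hex
    obtain ⟨m, hm⟩ := hE x₀
    have hfind : ∃ i, Subgroup.closure ({g, engelSeq g x₀ i} : Set G) = ⊤ ∧
        Subgroup.closure ({g, engelSeq g x₀ (i + 1)} : Set G) ≠ ⊤ := by
      by_contra hc
      simp only [not_exists, not_and, not_not] at hc
      have hall : ∀ i, Subgroup.closure ({g, engelSeq g x₀ i} : Set G) = ⊤ := by
        intro i
        induction i with
        | zero => exact hx₀
        | succ i ihi => exact hc i ihi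
      have h1 := hall m
      rw [hm] at h1
      apply hM.1
      rw [eq_top_iff, ← h1, Subgroup.closure_le]
      intro z hz
      rcases hz with rfl | rfl
      · exact hgM
      · exact M.one_mem
    obtain ⟨i, hi1, hi2⟩ := hfind
    set y := engelSeq g x₀ i with hy
    have h2 : y * g * y⁻¹ * g⁻¹ ∈ M := by
      have := key _ hi2
      rwa [engelSeq_succ] at this
    have h3 : y * g * y⁻¹ ∈ M := by
      have := M.mul_mem h2 hgM
      simpa using this
    have h4 : g ∈ MulAut.conj y⁻¹ • M := by
      rw [mem_conj_smul_iff]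
      simpa using h3
    have h5 : MulAut.conj y⁻¹ • M = M :=
      huniq _ (isCoatom_conj_smul hM y⁻¹) (by rw [Subgroup.zpowers_le]; exact h4)
    have h6 : y ∈ Subgroup.normalizer (M : Set G) := by
      have := mem_normalizer_of_conj_smul_le h5.le
      simpa using Subgroup.inv_mem _ this
    have h7 : Subgroup.normalizer (M : Set G) = ⊤ := by
      rw [eq_top_iff, ← hi1, Subgroup.closure_le]
      intro z hz
      rcases hz with rfl | rfl
      · exact Subgroup.le_normalizer hgM
      · exact h6
    have hMn : M.Normal := Subgroup.normalizer_eq_top_iff.mp h7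
    exact hA (Subgroup.IsSubnormal.trans hAM (step1 M hAM hM.1) hMn.isSubnormal)

theorem engel_subnormal {G : Type u} [Group G] [Finite G] (g : G)
    (hE : ∀ x : G, ∃ m, engelSeq g x m = 1) : (Subgroup.zpowers g).IsSubnormal :=
  engel_subnormal_aux _ G rfl g hE

/-- A nilpotent subnormal subgroup lies in the Fitting subgroup. -/
theorem le_fitting_of_subnormal_nilpotent {G : Type u} [Group G] [Finite G] {A : Subgroup G}
    (hsub : A.IsSubnormal) (hAnil : Group.IsNilpotent A) : A ≤ Cfsg.fittingSubgroup G := by
  have hF : Cfsg.fittingSubgroup ↥A = ⊤ := by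
    rw [eq_top_iff]
    exact le_sSup ⟨inferInstance, Group.isNilpotent_top.mpr hAnil⟩
  have h1 := Cfsg.Agent.Lib.helper7.fitting_subnormal_eq hsub
  rw [hF, ← MonoidHom.range_eq_map, Subgroup.range_subtype] at h1
  rw [h1]
  exact inf_le_left

/-- Elements of the Fitting subgroup are left Engel elements. -/
theorem engel_of_mem_fitting {G : Type u} [Group G] [Finite G] {g : G}
    (hg : g ∈ Cfsg.fittingSubgroup G) (x : G) : ∃ m, engelSeq g x m = 1 := by
  set F := Cfsg.fittingSubgroup G with hF
  haveI hFn : F.Normal := Cfsg.Agent.Lib.helper1.fitting_normal G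
  obtain ⟨c, hc⟩ := (Subgroup.isNilpotent_iff_lowerCentralSeries F).mp
    (Cfsg.Agent.Lib.helper1.fitting_isNilpotent G)
  have hmem : ∀ k, engelSeq g x (k + 1) ∈ F.lowerCentralSeries k := by
    intro k
    induction k with
    | zero =>
      rw [engelSeq_succ, engelSeq_zero, Subgroup.lowerCentralSeries_zero]
      exact F.mul_mem (hFn.conj_mem g hg x) (F.inv_mem hg)
    | succ k ihk =>
      rw [engelSeq_succ, Subgroup.lowerCentralSeries_succ]
      exact Subgroup.commutator_mem_commutator ihk hg
  refine ⟨c + 1, ?_⟩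
  have := hmem c
  rw [hc] at this
  exact Subgroup.mem_bot.mp this

end Cfsg.Agent.Lib.helper20
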