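import Mathlib

set_option autoImplicit false

namespace Cfsg.Agent.Lib.helper20

open scoped Pointwise

/-- Burnside's lemma for a coset space. -/
theorem sum_card_fixedBy_quotient {K : Type*} [Group K] [Fintype K] (L : Subgroup K)
    [∀ k : K, Fintype (MulAction.fixedBy (K ⧸ L) k)] :
    ∑ k : K, Fintype.card (MulAction.fixedBy (K ⧸ L) k) = Fintype.card K := by
  classical
  have : Fintype (K ⧸ L) := Fintype.ofFinite _
  have hB := MulAction.sum_card_fixedBy_eq_card_orbits_mul_card_group K (K ⧸ L)
  have horb : Fintype.card (Quotient (MulAction.orbitRel K (K ⧸ L))) = 1 := by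
    rw [Fintype.card_eq_one_iff]
    refine ⟨Quotient.mk'' (QuotientGroup.mk 1), ?_⟩
    intro q
    induction q using Quotient.inductionOn' with
    | h a =>
      apply Quotient.sound'
      exact MulAction.exists_smul_eq K _ _
  rw [hB, horb, one_mul]

/-- A group acting with coprime degree such that non-identity elements fix at most one point
has a global fixed point. -/
theorem exists_fixed_point_of_coprime {K Ω : Type*} [Group K] [Finite K] [MulAction K Ω] [Finite Ω]
    [Nonempty Ω] (hcop : (Nat.card K).Coprime (Nat.card Ω))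
    (huniq : ∀ k : K, k ≠ 1 → ∀ a b : Ω, k • a = a → k • b = b → a = b) :
    ∃ ω : Ω, ∀ k : K, k • ω = ω := by
  classical
  by_contra hcon
  simp only [not_exists, not_forall] at hcon
  have hK1 : Nat.card K ≠ 1 := by
    intro h1
    have hsub : Subsingleton K := (Nat.card_eq_one_iff_unique.mp h1).1
    obtain ⟨ω⟩ := ‹Nonempty Ω›
    obtain ⟨k, hk⟩ := hcon ω
    exact hk (by rw [Subsingleton.elim k 1, one_smul])
  have hKpos : 0 < Nat.card K := Nat.card_pos
  have key : ∀ (p : ℕ) [Fact p.Prime], p ∣ Nat.card K → ∀ P : Sylow p K,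
      ∃ ω : Ω, (P : Subgroup K) ≤ MulAction.stabilizer K ω := by
    intro p _ hpK P
    have hpΩ : ¬ p ∣ Nat.card Ω := by
      intro hd
      have := Nat.dvd_gcd hpK hd
      rw [hcop] at this
      exact (Fact.out : p.Prime).one_lt.ne' (Nat.dvd_one.mp this)
    obtain ⟨ω, hω⟩ := P.isPGroup'.nonempty_fixed_point_of_prime_not_dvd_card Ω hpΩ
    refine ⟨ω, fun s hs => ?_⟩
    rw [MulAction.mem_stabilizer_iff]
    exact hω ⟨s, hs⟩
  -- first prime
  set p := (Nat.card K).minFac with hp
  have hpp : p.Prime := Nat.minFac_prime hK1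
  have hpf : Fact p.Prime := ⟨hpp⟩
  have hpK : p ∣ Nat.card K := Nat.minFac_dvd _
  obtain ⟨ω₁, hP⟩ := key p hpK (default : Sylow p K)
  have hL : MulAction.stabilizer K ω₁ ≠ ⊤ := by
    intro htop
    obtain ⟨k, hk⟩ := hcon ω₁
    apply hk
    have : k ∈ MulAction.stabilizer K ω₁ := by rw [htop]; exact Subgroup.mem_top k
    exact this
  have hLidx : (MulAction.stabilizer K ω₁).index ≠ 1 := by
    rw [Ne, Subgroup.index_eq_one]; exact hL
  set q := (MulAction.stabilizer K ω₁).index.minFac with hq
  have hqp : q.Prime := Nat.minFac_prime hLidx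
  have hqf : Fact q.Prime := ⟨hqp⟩
  have hqL : q ∣ (MulAction.stabilizer K ω₁).index := Nat.minFac_dvd _
  have hqK : q ∣ Nat.card K := hqL.trans (Subgroup.index_dvd_card _)
  obtain ⟨ω₂, hQ⟩ := key q hqK (default : Sylow q K)
  have hL' : MulAction.stabilizer K ω₂ ≠ ⊤ := by
    intro htop
    obtain ⟨k, hk⟩ := hcon ω₂
    apply hk
    have : k ∈ MulAction.stabilizer K ω₂ := by rw [htop]; exact Subgroup.mem_top k
    exact this
  -- the two orbits are different
  have hdisj : ∀ a b : K, a • ω₁ ≠ b • ω₂ := by
    intro a b hab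
    set c := b⁻¹ * a with hc
    have hω₂ : ω₂ = c • ω₁ := by
      rw [hc, mul_smul, hab, inv_smul_smul]
    have hle : ((default : Sylow q K) : Subgroup K).map (MulAut.conj c⁻¹).toMonoidHom ≤
        MulAction.stabilizer K ω₁ := by
      rintro _ ⟨s, hs, rfl⟩
      have hs2 : s • ω₂ = ω₂ := hQ hs
      rw [MulAction.mem_stabilizer_iff]
      simp only [MulEquiv.coe_toMonoidHom, MulAut.conj_apply, inv_inv]
      rw [mul_smul, mul_smul, ← hω₂, hs2, hω₂, inv_smul_smul]
    have hcard : Nat.card ((default : Sylow q K) : Subgroup K) ∣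
        Nat.card (MulAction.stabilizer K ω₁) := by
      rw [← Subgroup.card_map_of_injective
        (show Function.Injective (MulAut.conj c⁻¹).toMonoidHom from (MulAut.conj c⁻¹).injective)]
      exact Subgroup.card_dvd_of_le hle
    rw [Sylow.card_eq_multiplicity] at hcard
    have h1 := Subgroup.card_mul_index (MulAction.stabilizer K ω₁)
    have h2 : q ^ ((Nat.card K).factorization q + 1) ∣ Nat.card K := by
      rw [pow_succ]
      exact (Nat.mul_dvd_mul hcard hqL).trans (dvd_of_eq h1)
    exact Nat.pow_succ_factorization_not_dvd hKpos.ne' hqp h2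
  -- index bounds
  have hidx1 : 2 * (MulAction.stabilizer K ω₁).index ≤ Nat.card K := by
    have h1 := Subgroup.card_mul_index (MulAction.stabilizer K ω₁)
    have h2 : p ∣ Nat.card (MulAction.stabilizer K ω₁) :=
      ((default : Sylow p K).dvd_card_of_dvd_card hpK).trans (Subgroup.card_dvd_of_le hP)
    have h3 : 2 ≤ Nat.card (MulAction.stabilizer K ω₁) :=
      le_trans hpp.two_le (Nat.le_of_dvd Nat.card_pos h2)
    calc 2 * (MulAction.stabilizer K ω₁).index
        ≤ Nat.card (MulAction.stabilizer K ω₁) * (MulAction.stabilizer K ω₁).index :=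
          Nat.mul_le_mul_right _ h3
      _ = Nat.card K := h1
  have hidx2 : 2 * (MulAction.stabilizer K ω₂).index ≤ Nat.card K := by
    have h1 := Subgroup.card_mul_index (MulAction.stabilizer K ω₂)
    have h2 : q ∣ Nat.card (MulAction.stabilizer K ω₂) :=
      ((default : Sylow q K).dvd_card_of_dvd_card hqK).trans (Subgroup.card_dvd_of_le hQ)
    have h3 : 2 ≤ Nat.card (MulAction.stabilizer K ω₂) :=
      le_trans hqp.two_le (Nat.le_of_dvd Nat.card_pos h2)
    calc 2 * (MulAction.stabilizer K ω₂).index
        ≤ Nat.card (MulAction.stabilizer K ω₂) * (MulAction.stabilizer K ω₂).index :=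
          Nat.mul_le_mul_right _ h3
      _ = Nat.card K := h1
  -- Burnside
  have : Fintype K := Fintype.ofFinite K
  have hS1 := sum_card_fixedBy_quotient (MulAction.stabilizer K ω₁)
  have hS2 := sum_card_fixedBy_quotient (MulAction.stabilizer K ω₂)
  have hfix : ∀ (ω : Ω) (k : K), k ≠ 1 →
      Fintype.card (MulAction.fixedBy (K ⧸ MulAction.stabilizer K ω) k) ≤ 1 := by
    intro ω k hk
    rw [Fintype.card_le_one_iff_subsingleton]
    constructor
    rintro ⟨x, hx⟩ ⟨y, hy⟩
    apply Subtype.ext
    show x = y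
    apply MulAction.injective_ofQuotientStabilizer K ω
    apply huniq k hk
    · rw [← MulAction.ofQuotientStabilizer_smul, MulAction.mem_fixedBy.mp hx]
    · rw [← MulAction.ofQuotientStabilizer_smul, MulAction.mem_fixedBy.mp hy]
  have hle : ∀ k : K, k ≠ 1 →
      Fintype.card (MulAction.fixedBy (K ⧸ MulAction.stabilizer K ω₁) k) +
      Fintype.card (MulAction.fixedBy (K ⧸ MulAction.stabilizer K ω₂) k) ≤ 1 := by
    intro k hk
    by_cases h0 : Fintype.card (MulAction.fixedBy (K ⧸ MulAction.stabilizer K ω₁) k) = 0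
    · rw [h0, zero_add]; exact hfix ω₂ k hk
    · have h0' : Fintype.card (MulAction.fixedBy (K ⧸ MulAction.stabilizer K ω₂) k) = 0 := by
        rw [Fintype.card_eq_zero_iff]
        constructor
        rintro ⟨y, hy⟩
        obtain ⟨⟨x, hx⟩⟩ := Fintype.card_pos_iff.mp (Nat.pos_of_ne_zero h0)
        have e : MulAction.ofQuotientStabilizer K ω₁ x = MulAction.ofQuotientStabilizer K ω₂ y := by
          apply huniq k hk
          · rw [← MulAction.ofQuotientStabilizer_smul, MulAction.mem_fixedBy.mp hx]
          · rw [← MulAction.ofQuotientStabilizer_smul, MulAction.mem_fixedBy.mp hy]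
        induction x using QuotientGroup.induction_on with
        | H a =>
          induction y using QuotientGroup.induction_on with
          | H b => exact hdisj a b e
      rw [h0', add_zero]; exact hfix ω₁ k hk
  have hone : ∀ ω : Ω, Fintype.card (MulAction.fixedBy (K ⧸ MulAction.stabilizer K ω) (1 : K)) =
      (MulAction.stabilizer K ω).index := by
    intro ω
    rw [Subgroup.index, Nat.card_eq_fintype_card]
    apply Fintype.card_congr
    exact (Equiv.subtypeUnivEquiv (fun q => by rw [MulAction.mem_fixedBy, one_smul]))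
  have hsum : ∑ k : K, (Fintype.card (MulAction.fixedBy (K ⧸ MulAction.stabilizer K ω₁) k) +
      Fintype.card (MulAction.fixedBy (K ⧸ MulAction.stabilizer K ω₂) k)) =
      2 * Fintype.card K := by
    rw [Finset.sum_add_distrib, hS1, hS2, two_mul]
  rw [← Finset.add_sum_erase Finset.univ _ (Finset.mem_univ (1 : K)), hone, hone] at hsum
  have hrest : ∑ k ∈ Finset.univ.erase (1 : K),
      (Fintype.card (MulAction.fixedBy (K ⧸ MulAction.stabilizer K ω₁) k) +
      Fintype.card (MulAction.fixedBy (K ⧸ MulAction.stabilizer K ω₂) k)) ≤ Fintype.card K - 1 := by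
    calc _ ≤ ∑ k ∈ Finset.univ.erase (1 : K), 1 :=
          Finset.sum_le_sum (fun k hk => hle k (Finset.ne_of_mem_erase hk))
      _ = Fintype.card K - 1 := by
          rw [Finset.sum_const, Finset.card_erase_of_mem (Finset.mem_univ _), Finset.card_univ,
            smul_eq_mul, mul_one]
  rw [Nat.card_eq_fintype_card] at hidx1 hidx2 hKpos
  omega

end Cfsg.Agent.Lib.helper20
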