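import Mathlib
import Cfsg.Agent.S0081
import Cfsg.Agent.Lib.helper7.FSimple
import Cfsg.Agent.Lib.helper7.FStar
import Cfsg.Agent.Lib.helper7.Layer
import Cfsg.Agent.Lib.helper7.Comp

set_option autoImplicit false

namespace Cfsg.Agent.Lib.helper20.Mono

open Subgroup
open scoped commutatorElement Pointwise

universe u

section General

variable {G : Type u} [Group G] [Finite G] {p : ℕ} [Fact p.Prime]

/-- a normal `p`-subgroup lies in every Sylow `p`-subgroup -/
theorem normal_pgroup_le_sylow (P : Sylow p G) (N : Subgroup G) [N.Normal] (hN : IsPGroup p N) :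
    N ≤ (P : Subgroup G) := by
  have h1 : IsPGroup p (N ⊔ (P : Subgroup G) : Subgroup G) := IsPGroup.to_sup_of_normal_left hN P.2
  have h2 := P.3 h1 le_sup_right
  rw [← h2]; exact le_sup_left

/-- a normal subgroup with a normal `p`-complement is a `p`-group when `O_{p'}(G) = 1` -/
theorem isPGroup_of_npc (hcore : Cfsg.pPrimeCore p G = ⊥) (N : Subgroup G) [hN : N.Normal]
    (h : Cfsg.HasNormalPComplement p N) : IsPGroup p N := by
  have hpp : p.Prime := Fact.out
  obtain ⟨Q, M, hMn, hMQ⟩ := h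
  have hcard : Nat.card M * Nat.card (Q : Subgroup N) = Nat.card N := hMQ.card_mul_card
  have hidx : (Q : Subgroup N).index * Nat.card (Q : Subgroup N) = Nat.card N :=
    (Q : Subgroup N).index_mul_card
  have hMi : Nat.card M = (Q : Subgroup N).index :=
    Nat.eq_of_mul_eq_mul_right Nat.card_pos (hcard.trans hidx.symm)
  have hMcop : (Nat.card M).Coprime p := by
    rw [hMi]; exact ((Nat.Prime.coprime_iff_not_dvd hpp).mpr Q.not_dvd_index).symm
  have hMidx : M.index = Nat.card (Q : Subgroup N) := by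
    have h0 := M.index_mul_card
    have h3 : M.index * Nat.card M = Nat.card (Q : Subgroup N) * Nat.card M := by
      rw [h0, mul_comm, hcard]
    exact Nat.eq_of_mul_eq_mul_right Nat.card_pos h3
  obtain ⟨k, hk⟩ := IsPGroup.iff_card.mp Q.2
  have hpe : ∀ g : N, (orderOf g).Coprime p → g ∈ M := by
    intro g hg
    haveI := hMn
    have h1 : orderOf (QuotientGroup.mk' M g) ∣ orderOf g := orderOf_map_dvd _ g
    have h2 : orderOf (QuotientGroup.mk' M g) ∣ p ^ k := by
      have h0 := orderOf_dvd_natCard (QuotientGroup.mk' M g)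
      rwa [← Subgroup.index_eq_card, hMidx, hk] at h0
    have h4 : (orderOf (QuotientGroup.mk' M g)).Coprime p := Nat.Coprime.coprime_dvd_left h1 hg
    have h3 : orderOf (QuotientGroup.mk' M g) = 1 :=
      Nat.Coprime.eq_one_of_dvd (Nat.Coprime.pow_right k h4) h2
    have h6 : QuotientGroup.mk' M g = 1 := orderOf_eq_one_iff.mp h3
    exact (QuotientGroup.eq_one_iff g).mp h6
  let S : Set G := {g | g ∈ N ∧ (orderOf g).Coprime p}
  have hM₀le : Subgroup.closure S ≤ M.map N.subtype := by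
    apply (Subgroup.closure_le _).mpr
    rintro g ⟨hgN, hgo⟩
    refine ⟨⟨g, hgN⟩, hpe ⟨g, hgN⟩ ?_, rfl⟩
    rwa [Subgroup.orderOf_mk]
  have hM₀n : (Subgroup.closure S).Normal := by
    constructor
    intro n hn g
    have h0 : (Subgroup.closure S).map (MulAut.conj g).toMonoidHom ≤ Subgroup.closure S := by
      rw [MonoidHom.map_closure]
      apply (Subgroup.closure_le _).mpr
      rintro _ ⟨s, ⟨hsN, hso⟩, rfl⟩
      apply Subgroup.subset_closure
      refine ⟨?_, ?_⟩
      · show (MulAut.conj g) s ∈ N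
        rw [MulAut.conj_apply]; exact hN.conj_mem s hsN g
      · show (orderOf ((MulAut.conj g) s)).Coprime p
        rw [MulEquiv.orderOf_eq]; exact hso
    have h7 := h0 (Subgroup.mem_map_of_mem _ hn)
    simpa [MulAut.conj_apply] using h7
  have hM₀cop : (Nat.card (Subgroup.closure S)).Coprime p := by
    have h8 : Nat.card (Subgroup.closure S) ∣ Nat.card (M.map N.subtype) :=
      Subgroup.card_dvd_of_le hM₀le
    rw [Subgroup.card_subtype] at h8
    exact Nat.Coprime.coprime_dvd_left h8 hMcop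
  have hM₀bot : Subgroup.closure S = ⊥ := by
    have h0 : Subgroup.closure S ≤ Cfsg.pPrimeCore p G := le_sSup ⟨hM₀n, hM₀cop⟩
    rw [hcore] at h0; exact le_bot_iff.mp h0
  intro g
  obtain ⟨a, m, hm, hgm⟩ :=
    Nat.exists_eq_pow_mul_and_not_dvd (orderOf_pos (g : G)).ne' p hpp.ne_one
  refine ⟨a, ?_⟩
  have h10 : ((g : G) ^ p ^ a) ∈ Subgroup.closure S := by
    apply Subgroup.subset_closure
    refine ⟨N.pow_mem g.2 _, ?_⟩
    have h11 : orderOf ((g : G) ^ p ^ a) ∣ m := by
      apply orderOf_dvd_of_pow_eq_one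
      rw [← pow_mul, ← hgm, pow_orderOf_eq_one]
    exact Nat.Coprime.coprime_dvd_left h11 ((Nat.Prime.coprime_iff_not_dvd hpp).mpr hm).symm
  rw [hM₀bot, Subgroup.mem_bot] at h10
  exact Subtype.ext (by simpa using h10)

/-- a commutative finite group has a normal `p`-complement -/
theorem npc_of_comm {H : Type u} [Group H] [Finite H] (p : ℕ) [Fact p.Prime]
    (hc : ∀ a b : H, a * b = b * a) : Cfsg.HasNormalPComplement p H := by
  have hnorm : ∀ S : Subgroup H, S.Normal := fun S =>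
    ⟨fun n hn g => by rw [hc g n, mul_inv_cancel_right]; exact hn⟩
  obtain ⟨Q⟩ : Nonempty (Sylow p H) := inferInstance
  haveI := hnorm (Q : Subgroup H)
  obtain ⟨M, hM⟩ := Subgroup.exists_left_complement'_of_coprime Q.card_coprime_index
  exact ⟨Q, M, hnorm M, hM⟩

/-- Tate: with `O_{p'}(G) = 1` and no normal subgroup of `G` inside `Φ(P)`, every nontrivial normal
subgroup meets `P` outside `Φ(P)`. -/
theorem factA (P : Sylow p G) (hcore : Cfsg.pPrimeCore p G = ⊥)
    (hfrat : ((frattini ↥(P : Subgroup G)).map (P : Subgroup G).subtype).normalCore = ⊥)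
    (N : Subgroup G) [hN : N.Normal] (hN1 : N ≠ ⊥) :
    ¬ N.subgroupOf (P : Subgroup G) ≤ frattini ↥(P : Subgroup G) := by
  intro hle
  have h1 : N ⊓ (P : Subgroup G) ≤ (frattini ↥(P : Subgroup G)).map (P : Subgroup G).subtype := by
    intro g hg
    obtain ⟨hgN, hgP⟩ := Subgroup.mem_inf.mp hg
    exact ⟨⟨g, hgP⟩, hle (Subgroup.mem_subgroupOf.mpr hgN), rfl⟩
  have h2 := Cfsg.Agent.S0081.result P N h1
  have h3 : IsPGroup p N := isPGroup_of_npc hcore N h2
  have h4 : N ≤ P := normal_pgroup_le_sylow P N h3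
  have h5 : N ≤ (frattini ↥(P : Subgroup G)).map (P : Subgroup G).subtype := by
    intro g hg; exact h1 (Subgroup.mem_inf.mpr ⟨hg, h4 hg⟩)
  have h6 : N ≤ ((frattini ↥(P : Subgroup G)).map (P : Subgroup G).subtype).normalCore :=
    Subgroup.normal_le_normalCore.mpr h5
  rw [hfrat] at h6
  exact hN1 (le_bot_iff.mp h6)

end General

/-- a finite group with Frattini quotient of order `p²`: a subgroup outside the Frattini subgroup
generates the group together with one more element -/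
theorem exists_gen {p : ℕ} [Fact p.Prime] (P : Type u) [Group P] [Finite P]
    (hidx : (frattini P).index = p ^ 2)
    (A : Subgroup P) (hA : ¬ A ≤ frattini P) : ∃ x : P, A ⊔ Subgroup.zpowers x = ⊤ := by
  have hpp : p.Prime := Fact.out
  have hFD : frattini P ≤ A ⊔ frattini P := le_sup_right
  have h1 : (frattini P).relIndex (A ⊔ frattini P) * (A ⊔ frattini P).index = p ^ 2 := by
    rw [Subgroup.relIndex_mul_index hFD, hidx]
  have h2 : (frattini P).relIndex (A ⊔ frattini P) ≠ 1 := by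
    intro h
    have h0 : A ⊔ frattini P ≤ frattini P := Subgroup.relIndex_eq_one.mp h
    exact hA (le_trans le_sup_left h0)
  have h3 : (A ⊔ frattini P).index ∣ p ^ 2 := Dvd.intro_left _ h1
  obtain ⟨j, hj, hDj⟩ := (Nat.dvd_prime_pow hpp).mp h3
  have hj2 : j ≠ 2 := by
    intro h
    rw [hDj, h] at h1
    exact h2 (Nat.eq_of_mul_eq_mul_right (pow_pos hpp.pos 2) (by rw [h1, one_mul]))
  by_cases hD1 : A ⊔ frattini P = ⊤
  · refine ⟨1, ?_⟩
    have h0 : A = ⊤ := frattini_nongenerating hD1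
    rw [h0]; simp
  · have hj1 : j = 1 := by
      have h0 : j ≠ 0 := by
        intro h0; rw [h0, pow_zero] at hDj
        exact hD1 (Subgroup.index_eq_one.mp hDj)
      omega
    rw [hj1, pow_one] at hDj
    obtain ⟨x, -, hx⟩ := SetLike.exists_of_lt (lt_top_iff_ne_top.mpr hD1)
    refine ⟨x, ?_⟩
    have h4 : (A ⊔ frattini P) ⊔ Subgroup.zpowers x = ⊤ := by
      have hle : A ⊔ frattini P ≤ (A ⊔ frattini P) ⊔ Subgroup.zpowers x := le_sup_left
      have h5 : (A ⊔ frattini P).relIndex ((A ⊔ frattini P) ⊔ Subgroup.zpowers x) *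
          ((A ⊔ frattini P) ⊔ Subgroup.zpowers x).index = p := by
        rw [Subgroup.relIndex_mul_index hle, hDj]
      have h6 : (A ⊔ frattini P).relIndex ((A ⊔ frattini P) ⊔ Subgroup.zpowers x) ≠ 1 := by
        intro h
        have h0 : (A ⊔ frattini P) ⊔ Subgroup.zpowers x ≤ A ⊔ frattini P :=
          Subgroup.relIndex_eq_one.mp h
        exact hx (h0 (Subgroup.mem_sup_right (Subgroup.mem_zpowers x)))
      have h7 : (A ⊔ frattini P).relIndex ((A ⊔ frattini P) ⊔ Subgroup.zpowers x) = p := by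
        rcases (Nat.dvd_prime hpp).mp (Dvd.intro _ h5) with h | h
        · exact absurd h h6
        · exact h
      rw [h7] at h5
      have h8 : ((A ⊔ frattini P) ⊔ Subgroup.zpowers x).index = 1 :=
        Nat.eq_of_mul_eq_mul_left hpp.pos (h5.trans (mul_one p).symm)
      exact Subgroup.index_eq_one.mp h8
    apply frattini_nongenerating
    rw [← h4, sup_assoc, sup_assoc, sup_comm (Subgroup.zpowers x)]

/-- if `H = N⟨x⟩` with `N` normal then `H/N` is abelian -/
theorem comm_mem_of_gen {H : Type u} [Group H] (N : Subgroup H) [N.Normal] (x : H)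
    (h : N ⊔ Subgroup.zpowers x = ⊤) (a b : H) : ⁅a, b⁆ ∈ N := by
  have key : ∀ c : H, (QuotientGroup.mk' N c) ∈ Subgroup.zpowers (QuotientGroup.mk' N x) := by
    intro c
    have hc : c ∈ N ⊔ Subgroup.zpowers x := by rw [h]; trivial
    have h0 : QuotientGroup.mk' N c ∈ (N ⊔ Subgroup.zpowers x).map (QuotientGroup.mk' N) :=
      Subgroup.mem_map_of_mem _ hc
    rw [Subgroup.map_sup, QuotientGroup.map_mk'_self, bot_sup_eq, MonoidHom.map_zpowers] at h0
    exact h0
  obtain ⟨i, hi⟩ := Subgroup.mem_zpowers_iff.mp (key a)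
  obtain ⟨j, hj⟩ := Subgroup.mem_zpowers_iff.mp (key b)
  rw [← QuotientGroup.eq_one_iff, ← QuotientGroup.mk'_apply, map_commutatorElement, ← hi, ← hj,
    commutatorElement_eq_one_iff_commute]
  exact Commute.zpow_zpow_self _ i j

/-- elements of `P ∩ C(K₀)` commute when `P ≤ K₀⟨x⟩` and `K₀` is abelian normal -/
theorem cent_comm {G : Type u} [Group G] (K₀ : Subgroup G) [K₀.Normal]
    (hab : ∀ a ∈ K₀, ∀ b ∈ K₀, a * b = b * a) (P' : Subgroup G) (x : G)
    (hx : P' ≤ K₀ ⊔ Subgroup.zpowers x) {a b : G} (ha : a ∈ P')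
    (hac : a ∈ Subgroup.centralizer (K₀ : Set G)) (hb : b ∈ P')
    (hbc : b ∈ Subgroup.centralizer (K₀ : Set G)) : a * b = b * a := by
  have ha0 : a ∈ (K₀ : Set G) * (Subgroup.zpowers x : Set G) := by
    rw [← Subgroup.normal_mul]; exact hx ha
  have hb0 : b ∈ (K₀ : Set G) * (Subgroup.zpowers x : Set G) := by
    rw [← Subgroup.normal_mul]; exact hx hb
  obtain ⟨k₁, hk₁, t₁, ht₁, rfl⟩ := Set.mem_mul.mp ha0
  obtain ⟨k₂, hk₂, t₂, ht₂, rfl⟩ := Set.mem_mul.mp hb0
  obtain ⟨i, rfl⟩ := Subgroup.mem_zpowers_iff.mp ht₁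
  obtain ⟨j, rfl⟩ := Subgroup.mem_zpowers_iff.mp ht₂
  have ha' := Subgroup.mem_centralizer_iff.mp hac k₂ hk₂
  have hb' := Subgroup.mem_centralizer_iff.mp hbc k₁ hk₁
  have ht : x ^ i * x ^ j = x ^ j * x ^ i := (Commute.zpow_zpow_self x i j).eq
  have e1 : (k₁ * x ^ i) * (k₂ * x ^ j) = k₂ * k₁ * (x ^ i * x ^ j) := by
    rw [← mul_assoc (k₁ * x ^ i) k₂ (x ^ j), ← ha']; group
  have e2 : (k₂ * x ^ j) * (k₁ * x ^ i) = k₁ * k₂ * (x ^ j * x ^ i) := by
    rw [← mul_assoc (k₂ * x ^ j) k₁ (x ^ i), ← hb']; group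
  rw [e1, e2, hab k₁ hk₁ k₂ hk₂, ht]

end Cfsg.Agent.Lib.helper20.Mono
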