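import Mathlib
import Cfsg.Agent.Lib.helper20.Mono1

set_option autoImplicit false

namespace Cfsg.Agent.Lib.helper20.Mono

open Subgroup
open scoped commutatorElement Pointwise

universe u

variable {G : Type u} [Group G] [Finite G] {p : ℕ} [Fact p.Prime]

theorem comm_mem_normal (P : Sylow p G)
    (hgen : (frattini ↥(P : Subgroup G)).index = p ^ 2)
    (hcore : Cfsg.pPrimeCore p G = ⊥)
    (hfrat : ((frattini ↥(P : Subgroup G)).map (P : Subgroup G).subtype).normalCore = ⊥)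
    (N : Subgroup G) [N.Normal] (hN1 : N ≠ ⊥) {a b : G} (ha : a ∈ (P : Subgroup G))
    (hb : b ∈ (P : Subgroup G)) : ⁅a, b⁆ ∈ N := by
  have h1 := factA P hcore hfrat N hN1
  obtain ⟨x, hx⟩ := exists_gen (p := p) ↥(P : Subgroup G) hgen _ h1
  have h2 := comm_mem_of_gen (N.subgroupOf (P : Subgroup G)) x hx ⟨a, ha⟩ ⟨b, hb⟩
  exact Subgroup.mem_subgroupOf.mp h2

theorem exists_gen_normal (P : Sylow p G)
    (hgen : (frattini ↥(P : Subgroup G)).index = p ^ 2)
    (hcore : Cfsg.pPrimeCore p G = ⊥)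
    (hfrat : ((frattini ↥(P : Subgroup G)).map (P : Subgroup G).subtype).normalCore = ⊥)
    (N : Subgroup G) [N.Normal] (hN1 : N ≠ ⊥) :
    ∃ x ∈ (P : Subgroup G), (P : Subgroup G) ≤ N ⊔ Subgroup.zpowers x := by
  have h1 := factA P hcore hfrat N hN1
  obtain ⟨x, hx⟩ := exists_gen (p := p) ↥(P : Subgroup G) hgen _ h1
  refine ⟨x, x.2, ?_⟩
  intro y hy
  have h2 : (⟨y, hy⟩ : (P : Subgroup G)) ∈
      N.subgroupOf (P : Subgroup G) ⊔ Subgroup.zpowers x := by rw [hx]; trivial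
  have h3 : y ∈ (N.subgroupOf (P : Subgroup G) ⊔ Subgroup.zpowers x).map
      (P : Subgroup G).subtype := ⟨⟨y, hy⟩, h2, rfl⟩
  rw [Subgroup.map_sup, MonoidHom.map_zpowers] at h3
  have h4 : (N.subgroupOf (P : Subgroup G)).map (P : Subgroup G).subtype ⊔
      Subgroup.zpowers ((P : Subgroup G).subtype x) ≤ N ⊔ Subgroup.zpowers (x : G) :=
    sup_le_sup_right (by rw [Subgroup.subgroupOf_map_subtype]; exact inf_le_left) _
  exact h4 h3

theorem inf_ne_bot (P : Sylow p G) (hna : ¬ IsMulCommutative (P : Subgroup G))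
    (hgen : (frattini ↥(P : Subgroup G)).index = p ^ 2)
    (hcore : Cfsg.pPrimeCore p G = ⊥)
    (hfrat : ((frattini ↥(P : Subgroup G)).map (P : Subgroup G).subtype).normalCore = ⊥)
    (N₁ N₂ : Subgroup G) [N₁.Normal] [N₂.Normal] (h1 : N₁ ≠ ⊥) (h2 : N₂ ≠ ⊥) :
    N₁ ⊓ N₂ ≠ ⊥ := by
  intro h
  apply hna
  refine ⟨⟨fun a b => ?_⟩⟩
  have ha := comm_mem_normal P hgen hcore hfrat N₁ h1 a.2 b.2
  have hb := comm_mem_normal P hgen hcore hfrat N₂ h2 a.2 b.2
  have h0 : ⁅(a : G), (b : G)⁆ ∈ N₁ ⊓ N₂ := ⟨ha, hb⟩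
  rw [h, Subgroup.mem_bot, commutatorElement_eq_one_iff_mul_comm] at h0
  exact Subtype.ext h0

theorem exists_monolith (P : Sylow p G) (hna : ¬ IsMulCommutative (P : Subgroup G))
    (hgen : (frattini ↥(P : Subgroup G)).index = p ^ 2)
    (hcore : Cfsg.pPrimeCore p G = ⊥)
    (hfrat : ((frattini ↥(P : Subgroup G)).map (P : Subgroup G).subtype).normalCore = ⊥) :
    ∃ K₀ : Subgroup G, K₀.Normal ∧ K₀ ≠ ⊥ ∧ ∀ N : Subgroup G, N.Normal → N ≠ ⊥ → K₀ ≤ N := by
  have hnt : (⊤ : Subgroup G) ≠ ⊥ := by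
    intro h
    apply hna
    refine ⟨⟨fun a b => ?_⟩⟩
    have ha : (a : G) ∈ (⊥ : Subgroup G) := by rw [← h]; trivial
    have hb : (b : G) ∈ (⊥ : Subgroup G) := by rw [← h]; trivial
    rw [Subgroup.mem_bot] at ha hb
    apply Subtype.ext
    simp [ha, hb]
  obtain ⟨K₀, ⟨hKn, hK1⟩, hmin⟩ := Set.exists_min_image {N : Subgroup G | N.Normal ∧ N ≠ ⊥}
    (fun N => Nat.card N) (Set.toFinite _) ⟨⊤, inferInstance, hnt⟩
  refine ⟨K₀, hKn, hK1, ?_⟩
  intro N hN hN1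
  haveI := hKn; haveI := hN
  have h1 : K₀ ⊓ N ≠ ⊥ := inf_ne_bot P hna hgen hcore hfrat K₀ N hK1 hN1
  have h2 := hmin (K₀ ⊓ N) ⟨inferInstance, h1⟩
  have h3 : K₀ ⊓ N = K₀ := Subgroup.eq_of_le_of_card_ge inf_le_left h2
  rw [← h3]; exact inf_le_right

/-- Tate inside a subgroup `Γ ≥ P`: a `Γ`-normal subgroup `A` containing a perfect subgroup of
order divisible by `p` meets `P` outside `Φ(P)`. -/
theorem tate_sub (P : Sylow p G) (Γ A K : Subgroup G) (hPΓ : (P : Subgroup G) ≤ Γ) (hAΓ : A ≤ Γ)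
    (hΓA : Γ ≤ Subgroup.normalizer (A : Set G)) (hKA : K ≤ A) [hKperf : Group.IsPerfect ↥K]
    (hKp : p ∣ Nat.card K) :
    ¬ A.subgroupOf (P : Subgroup G) ≤ frattini ↥(P : Subgroup G) := by
  intro hle
  have hpp : p.Prime := Fact.out
  let PΓ : Sylow p ↥Γ := P.subtype hPΓ
  haveI hAn : (A.subgroupOf Γ).Normal := Subgroup.normal_subgroupOf_of_le_normalizer hΓA
  have hmemP : ∀ γ : Γ, γ ∈ (PΓ : Subgroup Γ) → (γ : G) ∈ (P : Subgroup G) := by
    intro γ hγ
    exact hγ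
  have h1 : A.subgroupOf Γ ⊓ (PΓ : Subgroup Γ) ≤
      (frattini ↥(PΓ : Subgroup Γ)).map (PΓ : Subgroup Γ).subtype := by
    intro γ hγ
    obtain ⟨hγA, hγP⟩ := Subgroup.mem_inf.mp hγ
    have hγP' : (γ : G) ∈ (P : Subgroup G) := hmemP γ hγP
    have hy : (⟨(γ : G), hγP'⟩ : (P : Subgroup G)) ∈ frattini ↥(P : Subgroup G) :=
      hle (Subgroup.mem_subgroupOf.mpr (Subgroup.mem_subgroupOf.mp hγA))
    let e : ↥(P : Subgroup G) →* ↥(PΓ : Subgroup Γ) :=
      { toFun := fun y => ⟨⟨(y : G), hPΓ y.2⟩, y.2⟩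
        map_one' := rfl
        map_mul' := fun _ _ => rfl }
    have hsurj : Function.Surjective e := by
      rintro ⟨⟨g, hgΓ⟩, hg⟩
      exact ⟨⟨g, hmemP ⟨g, hgΓ⟩ hg⟩, rfl⟩
    have h2 := frattini_le_comap_frattini_of_surjective hsurj hy
    exact ⟨e ⟨(γ : G), hγP'⟩, h2, rfl⟩
  obtain ⟨Q, M, hMn, hMQ⟩ := Cfsg.Agent.S0081.result PΓ (A.subgroupOf Γ) h1
  haveI := hMn
  have hcard : Nat.card M * Nat.card (Q : Subgroup ↥(A.subgroupOf Γ)) =
      Nat.card ↥(A.subgroupOf Γ) := hMQ.card_mul_card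
  have hidx := (Q : Subgroup ↥(A.subgroupOf Γ)).index_mul_card
  have hMi : Nat.card M = (Q : Subgroup ↥(A.subgroupOf Γ)).index :=
    Nat.eq_of_mul_eq_mul_right Nat.card_pos (hcard.trans hidx.symm)
  have hMidx : M.index = Nat.card (Q : Subgroup ↥(A.subgroupOf Γ)) := by
    have h0 := M.index_mul_card
    have h3 : M.index * Nat.card M = Nat.card (Q : Subgroup ↥(A.subgroupOf Γ)) * Nat.card M := by
      rw [h0, mul_comm, hcard]
    exact Nat.eq_of_mul_eq_mul_right Nat.card_pos h3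
  let ψ : ↥K →* ↥(A.subgroupOf Γ) :=
    { toFun := fun k => ⟨⟨(k : G), hAΓ (hKA k.2)⟩, Subgroup.mem_subgroupOf.mpr (hKA k.2)⟩
      map_one' := rfl
      map_mul' := fun _ _ => rfl }
  have hψinj : Function.Injective ψ := by
    intro a b h
    have h0 := congrArg (fun t : ↥(A.subgroupOf Γ) => ((t : Γ) : G)) h
    exact Subtype.ext h0
  let f : ↥K →* ↥(A.subgroupOf Γ) ⧸ M := (QuotientGroup.mk' M).comp ψ
  have hf : ∀ k : K, f k = 1 := by
    haveI : Group.IsPerfect ↥f.range := Group.IsPerfect.range f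
    obtain ⟨n, hn⟩ := IsPGroup.iff_card.mp Q.2
    have hpg : IsPGroup p (↥(A.subgroupOf Γ) ⧸ M) := by
      apply IsPGroup.of_card (n := n)
      rw [← Subgroup.index_eq_card, hMidx, hn]
    haveI hnil : Group.IsNilpotent (↥(A.subgroupOf Γ) ⧸ M) := hpg.isNilpotent
    have hsolv : Group.IsSolvable ↥f.range := inferInstance
    haveI : Subsingleton ↥f.range := by
      by_contra hns
      rw [not_subsingleton_iff_nontrivial] at hns
      exact Group.IsPerfect.not_isSolvable ↥f.range hsolv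
    intro k
    have h0 : (⟨f k, ⟨k, rfl⟩⟩ : f.range) = 1 := Subsingleton.elim _ _
    exact congrArg Subtype.val h0
  have hψM : ∀ k : K, ψ k ∈ M := fun k => (QuotientGroup.eq_one_iff _).mp (hf k)
  have hdiv : Nat.card K ∣ Nat.card M := by
    have h4 : ψ.range ≤ M := by rintro _ ⟨k, rfl⟩; exact hψM k
    have h5 : Nat.card ψ.range = Nat.card K :=
      Nat.card_congr (Equiv.ofInjective ψ hψinj).symm
    rw [← h5]; exact Subgroup.card_dvd_of_le h4
  have h6 : p ∣ (Q : Subgroup ↥(A.subgroupOf Γ)).index := by rw [← hMi]; exact dvd_trans hKp hdiv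
  exact Q.not_dvd_index h6

/-- transfer: a central element of the derived subgroup lying in an abelian Sylow subgroup is
trivial -/
theorem central_comm_sylow {E : Type u} [Group E] [Finite E] (S : Sylow p E)
    (hS : ∀ a b : (S : Subgroup E), a * b = b * a) (z : E) (hzS : z ∈ (S : Subgroup E))
    (hzZ : z ∈ Subgroup.center E) (hzC : z ∈ commutator E) : z = 1 := by
  have hpp : p.Prime := Fact.out
  haveI : IsMulCommutative ↥(S : Subgroup E) := ⟨⟨hS⟩⟩
  have key : ∀ (k : ℕ) (g₀ : E), g₀⁻¹ * z ^ k * g₀ ∈ (S : Subgroup E) →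
      g₀⁻¹ * z ^ k * g₀ = z ^ k := by
    intro k g₀ _
    have h0 : z ^ k ∈ Subgroup.center E := Subgroup.pow_mem _ hzZ k
    rw [Subgroup.mem_center_iff] at h0
    rw [mul_assoc, ← h0 g₀, inv_mul_cancel_left]
  open scoped IsMulCommutative in
  have h1 := MonoidHom.transfer_eq_pow (MonoidHom.id ↥(S : Subgroup E)) z key
  open scoped IsMulCommutative in
  have h2 : MonoidHom.transfer (MonoidHom.id ↥(S : Subgroup E)) z = 1 :=
    Abelianization.commutator_subset_ker _ hzC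
  rw [h2] at h1
  have h3 : z ^ (S : Subgroup E).index = 1 := by
    have h0 := congrArg Subtype.val h1
    simpa using h0.symm
  obtain ⟨k, hk⟩ := (IsPGroup.iff_orderOf.mp S.2) ⟨z, hzS⟩
  have h4 : orderOf z = p ^ k := by rw [← hk, Subgroup.orderOf_mk]
  have h5 : orderOf z ∣ (S : Subgroup E).index := orderOf_dvd_of_pow_eq_one h3
  have h6 : (p ^ k).Coprime (S : Subgroup E).index :=
    Nat.Coprime.pow_left k ((Nat.Prime.coprime_iff_not_dvd hpp).mpr S.not_dvd_index)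
  rw [h4] at h5
  have h7 : p ^ k = 1 := Nat.Coprime.eq_one_of_dvd h6 h5
  rw [h7] at h4
  exact orderOf_eq_one_iff.mp h4

end Cfsg.Agent.Lib.helper20.Mono
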