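import Mathlib
import Cfsg.Agent.Lib.helper20.Mono2
import Cfsg.Agent.Lib.helper15.CD

set_option autoImplicit false

namespace Cfsg.Agent.Lib.helper20.Mono

open Subgroup
open Cfsg.Agent.Lib
open scoped commutatorElement Pointwise IsMulCommutative

universe u

theorem conj_map_map {G : Type u} [Group G] (K : Subgroup G) (x y : G) :
    (K.map (MulAut.conj x).toMonoidHom).map (MulAut.conj y).toMonoidHom =
      K.map (MulAut.conj (y * x)).toMonoidHom := by
  rw [Subgroup.map_map]
  congr 1
  ext g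
  simp [MulAut.conj_apply, mul_assoc]

theorem conj_map_one {G : Type u} [Group G] (K : Subgroup G) :
    K.map (MulAut.conj (1 : G)).toMonoidHom = K := by
  have h0 : (MulAut.conj (1 : G)).toMonoidHom = MonoidHom.id G := by
    ext g; simp [MulAut.conj_apply]
  rw [h0, Subgroup.map_id]

variable {G : Type u} [Group G] [Finite G] {p : ℕ} [Fact p.Prime]

/-- the join of the `P`-conjugates of `K` -/
def orbitSup (P K : Subgroup G) : Subgroup G :=
  ⨆ x : P, K.map (MulAut.conj (x : G)).toMonoidHom

theorem le_orbitSup (P K : Subgroup G) : K ≤ orbitSup P K := by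
  have h0 : K.map (MulAut.conj ((1 : P) : G)).toMonoidHom ≤ orbitSup P K :=
    le_iSup (fun x : P => K.map (MulAut.conj (x : G)).toMonoidHom) 1
  rwa [Subgroup.coe_one, conj_map_one] at h0

theorem le_normalizer_orbitSup (P K : Subgroup G) :
    P ≤ Subgroup.normalizer (orbitSup P K : Set G) := by
  intro z hz
  apply helper15.mem_normalizer_of_conj_le
  intro r hr
  have h0 : (orbitSup P K).map (MulAut.conj z).toMonoidHom ≤ orbitSup P K := by
    unfold orbitSup
    rw [Subgroup.map_iSup]
    apply iSup_le; intro x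
    rw [conj_map_map]
    exact le_iSup (fun x : P => K.map (MulAut.conj (x : G)).toMonoidHom)
      ⟨z * x, Subgroup.mul_mem _ hz x.2⟩
  exact h0 ⟨r, hr, by simp [MulAut.conj_apply]⟩

theorem layer_le_normalizer_orbitSup (P K : Subgroup G) (hK : Cfsg.IsComponent K) :
    Cfsg.layer G ≤ Subgroup.normalizer (orbitSup P K : Set G) := by
  intro g hg
  apply helper15.mem_normalizer_of_conj_le
  intro r hr
  have h0 : (orbitSup P K).map (MulAut.conj g).toMonoidHom ≤ orbitSup P K := by
    unfold orbitSup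
    rw [Subgroup.map_iSup]
    apply iSup_le; intro x
    have hgn := helper7.layer_le_normalizer_comp (helper7.comp_map_equiv (MulAut.conj (x : G)) hK) hg
    refine le_trans ?_ (le_iSup (fun x : P => K.map (MulAut.conj (x : G)).toMonoidHom) x)
    rintro _ ⟨k, hk, rfl⟩
    exact (Subgroup.mem_normalizer_iff.mp hgn k).mp hk
  exact h0 ⟨r, hr, by simp [MulAut.conj_apply]⟩

theorem orbitSup_not_le_frattini (P : Sylow p G) (hcore : Cfsg.pPrimeCore p G = ⊥)
    (K : Subgroup G) (hK : Cfsg.IsComponent K) :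
    ¬ (orbitSup (P : Subgroup G) K).subgroupOf (P : Subgroup G) ≤ frattini ↥(P : Subgroup G) := by
  haveI := hK.2.1
  refine tate_sub P ((P : Subgroup G) ⊔ Cfsg.layer G) (orbitSup (P : Subgroup G) K) K le_sup_left
    ?_ (sup_le (le_normalizer_orbitSup _ K) (layer_le_normalizer_orbitSup _ K hK))
    (le_orbitSup _ K) (helper7.comp_p_dvd hcore hK)
  refine le_trans (iSup_le fun x => ?_) le_sup_right
  exact helper7.comp_le_layer (helper7.comp_map_equiv (MulAut.conj (x : G)) hK)

theorem nonab_case (P : Sylow p G) (hna : ¬ IsMulCommutative (P : Subgroup G))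
    (hgen : (frattini ↥(P : Subgroup G)).index = p ^ 2)
    (hcore : Cfsg.pPrimeCore p G = ⊥)
    (K₀ : Subgroup G) [hKn : K₀.Normal] (hK1 : K₀ ≠ ⊥)
    (hKmin : ∀ N : Subgroup G, N.Normal → N ≠ ⊥ → K₀ ≤ N)
    (hab : ¬ ∀ a ∈ K₀, ∀ b ∈ K₀, a * b = b * a) :
    Cfsg.generalizedFittingSubgroup G ≤ K₀ ∧
    ∀ K L : Subgroup G, Cfsg.IsComponent K → Cfsg.IsComponent L →
      ∃ x ∈ (P : Subgroup G), L = K.map (MulAut.conj x).toMonoidHom := by
  have hpp : p.Prime := Fact.out
  have hperf : ⁅K₀, K₀⁆ = K₀ := by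
    have h1 : ⁅K₀, K₀⁆ ≤ K₀ := Subgroup.commutator_le_left K₀ K₀
    by_cases h2 : ⁅K₀, K₀⁆ = ⊥
    · exfalso; apply hab
      intro a ha b hb
      have h0 : ⁅a, b⁆ ∈ ⁅K₀, K₀⁆ := Subgroup.commutator_mem_commutator ha hb
      rw [h2, Subgroup.mem_bot] at h0
      exact commutatorElement_eq_one_iff_mul_comm.mp h0
    · exact le_antisymm h1 (hKmin _ inferInstance h2)
  have hfit : Cfsg.fittingSubgroup G = ⊥ := by
    by_contra h
    have h1 : K₀ ≤ Cfsg.fittingSubgroup G := hKmin _ inferInstance h
    haveI hnil := helper7.fitting_nilpotent G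
    haveI hsolvF : Group.IsSolvable ↥(Cfsg.fittingSubgroup G) := inferInstance
    have hsolv : Group.IsSolvable ↥K₀ :=
      Group.isSolvable_of_isSolvable_injective (Subgroup.inclusion_injective h1)
    haveI : Nontrivial ↥K₀ := (Subgroup.nontrivial_iff_ne_bot K₀).mpr hK1
    haveI : Group.IsPerfect ↥K₀ := Subgroup.isPerfect_iff.mpr hperf
    exact Group.IsPerfect.not_isSolvable ↥K₀ hsolv
  have hC : Subgroup.centralizer (K₀ : Set G) = ⊥ := by
    by_contra h
    have h1 : K₀ ≤ Subgroup.centralizer (K₀ : Set G) := hKmin _ inferInstance h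
    apply hab
    intro a ha b hb
    exact (Subgroup.mem_centralizer_iff.mp (h1 ha) b hb).symm
  have hcomp : ∀ L : Subgroup G, Cfsg.IsComponent L → L ≤ K₀ := by
    intro L hL
    rcases helper7.comp_le_or_comm L K₀ hL (Subgroup.Normal.isSubnormal hKn) with h | h
    · exact h
    · exfalso
      rw [Subgroup.commutator_eq_bot_iff_le_centralizer, hC] at h
      haveI := helper7.qs_nontrivial hL.2
      exact (Subgroup.nontrivial_iff_ne_bot L).mp inferInstance (le_bot_iff.mp h)
  have hFle : Cfsg.generalizedFittingSubgroup G ≤ K₀ := by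
    unfold Cfsg.generalizedFittingSubgroup
    rw [hfit, sup_bot_eq]
    exact sSup_le (fun L hL => hcomp L hL)
  refine ⟨hFle, ?_⟩
  intro K L hK hL
  by_contra hno
  push Not at hno
  have hKx : ∀ x : G, Cfsg.IsComponent (K.map (MulAut.conj x).toMonoidHom) :=
    fun x => helper7.comp_map_equiv (MulAut.conj x) hK
  have hLx : ∀ x : G, Cfsg.IsComponent (L.map (MulAut.conj x).toMonoidHom) :=
    fun x => helper7.comp_map_equiv (MulAut.conj x) hL
  have hne : ∀ x ∈ (P : Subgroup G), ∀ y ∈ (P : Subgroup G),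
      L.map (MulAut.conj y).toMonoidHom ≠ K.map (MulAut.conj x).toMonoidHom := by
    intro x hx y hy h
    have h1 := congrArg (fun S : Subgroup G => S.map (MulAut.conj y⁻¹).toMonoidHom) h
    simp only [conj_map_map] at h1
    rw [inv_mul_cancel, conj_map_one] at h1
    exact hno (y⁻¹ * x) (Subgroup.mul_mem _ (Subgroup.inv_mem _ hy) hx) h1
  have hlayerK : K₀ ≤ Cfsg.layer G := by
    apply hKmin _ inferInstance
    intro h
    have h0 : K ≤ Cfsg.layer G := helper7.comp_le_layer hK
    rw [h] at h0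
    haveI := helper7.qs_nontrivial hK.2
    exact (Subgroup.nontrivial_iff_ne_bot K).mp inferInstance (le_bot_iff.mp h0)
  have hABbot : orbitSup (P : Subgroup G) K ⊓ orbitSup (P : Subgroup G) L = ⊥ := by
    have h0 : orbitSup (P : Subgroup G) K ⊓ orbitSup (P : Subgroup G) L ≤
        Subgroup.centralizer (Cfsg.layer G : Set G) := by
      rw [Subgroup.le_centralizer_iff]
      show sSup {M : Subgroup G | Cfsg.IsComponent M} ≤ _
      apply sSup_le
      intro M hM
      rw [Subgroup.le_centralizer_iff]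
      by_cases hMK : ∃ x ∈ (P : Subgroup G), M = K.map (MulAut.conj x).toMonoidHom
      · obtain ⟨x, hx, rfl⟩ := hMK
        refine le_trans inf_le_right ?_
        apply iSup_le; intro y
        rw [← Subgroup.commutator_eq_bot_iff_le_centralizer]
        exact helper7.comp_comm_of_ne (hLx y) (hKx x) (hne x hx y y.2)
      · push Not at hMK
        refine le_trans inf_le_left ?_
        apply iSup_le; intro x
        rw [← Subgroup.commutator_eq_bot_iff_le_centralizer]
        exact helper7.comp_comm_of_ne (hKx x) hM (fun h => hMK x x.2 h.symm)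
    have h1 : Subgroup.centralizer (Cfsg.layer G : Set G) ≤ Subgroup.centralizer (K₀ : Set G) :=
      Subgroup.centralizer_le hlayerK
    rw [hC] at h1
    exact le_bot_iff.mp (le_trans h0 h1)
  have hAP := orbitSup_not_le_frattini P hcore K hK
  have hBP := orbitSup_not_le_frattini P hcore L hL
  haveI : ((orbitSup (P : Subgroup G) K).subgroupOf (P : Subgroup G)).Normal :=
    Subgroup.normal_subgroupOf_of_le_normalizer (le_normalizer_orbitSup _ K)
  haveI : ((orbitSup (P : Subgroup G) L).subgroupOf (P : Subgroup G)).Normal :=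
    Subgroup.normal_subgroupOf_of_le_normalizer (le_normalizer_orbitSup _ L)
  obtain ⟨x, hx⟩ := exists_gen (p := p) ↥(P : Subgroup G) hgen _ hAP
  obtain ⟨y, hy⟩ := exists_gen (p := p) ↥(P : Subgroup G) hgen _ hBP
  apply hna
  refine ⟨⟨fun a b => ?_⟩⟩
  have h1 := comm_mem_of_gen ((orbitSup (P : Subgroup G) K).subgroupOf (P : Subgroup G)) x hx a b
  have h2 := comm_mem_of_gen ((orbitSup (P : Subgroup G) L).subgroupOf (P : Subgroup G)) y hy a b
  have h3 : ((⁅a, b⁆ : (P : Subgroup G)) : G) ∈
      orbitSup (P : Subgroup G) K ⊓ orbitSup (P : Subgroup G) L :=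
    ⟨Subgroup.mem_subgroupOf.mp h1, Subgroup.mem_subgroupOf.mp h2⟩
  rw [hABbot, Subgroup.mem_bot] at h3
  have h4 : ⁅a, b⁆ = 1 := Subtype.ext h3
  exact commutatorElement_eq_one_iff_mul_comm.mp h4

end Cfsg.Agent.Lib.helper20.Mono
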