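import Mathlib
import Cfsg.Agent.Lib.helper20.Mono3

set_option autoImplicit false

namespace Cfsg.Agent.Lib.helper20.Mono

open Subgroup
open Cfsg.Agent.Lib
open scoped commutatorElement Pointwise

universe u

variable {G : Type u} [Group G] [Finite G] {p : ℕ} [Fact p.Prime]

/-- an abelian normal `p`-subgroup containing the abelian monolith equals it -/
theorem eps (P : Sylow p G) (hna : ¬ IsMulCommutative (P : Subgroup G))
    (hgen : (frattini ↥(P : Subgroup G)).index = p ^ 2)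
    (hcore : Cfsg.pPrimeCore p G = ⊥)
    (hfrat : ((frattini ↥(P : Subgroup G)).map (P : Subgroup G).subtype).normalCore = ⊥)
    (K₀ : Subgroup G) [hKn : K₀.Normal] (hK1 : K₀ ≠ ⊥)
    (hKmin : ∀ N : Subgroup G, N.Normal → N ≠ ⊥ → K₀ ≤ N)
    (hab : ∀ a ∈ K₀, ∀ b ∈ K₀, a * b = b * a)
    (R : Subgroup G) [hRn : R.Normal] (hRab : ∀ a ∈ R, ∀ b ∈ R, a * b = b * a)
    (hRp : IsPGroup p R) (hKR : K₀ ≤ R) : R ≤ K₀ := by
  have hpp : p.Prime := Fact.out
  by_contra hnot
  obtain ⟨r, hrR, hrK⟩ := SetLike.not_le_iff_exists.mp hnot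
  obtain ⟨x, hxP, hPx⟩ := exists_gen_normal P hgen hcore hfrat K₀ hK1
  have hRP : R ≤ (P : Subgroup G) := normal_pgroup_le_sylow P R hRp
  have hr0 : r ∈ (K₀ : Set G) * (Subgroup.zpowers x : Set G) := by
    rw [← Subgroup.normal_mul]; exact hPx (hRP hrR)
  obtain ⟨k, hk, y, hy, rfl⟩ := Set.mem_mul.mp hr0
  have hyR : y ∈ R := by
    have h0 : y = k⁻¹ * (k * y) := by group
    rw [h0]; exact R.mul_mem (R.inv_mem (hKR hk)) hrR
  have hyK : y ∉ K₀ := fun h => hrK (K₀.mul_mem hk h)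
  -- y commutes with P
  have hyc : ∀ g ∈ (P : Subgroup G), g * y = y * g := by
    intro g hg
    have hg0 : g ∈ (K₀ : Set G) * (Subgroup.zpowers x : Set G) := by
      rw [← Subgroup.normal_mul]; exact hPx hg
    obtain ⟨k₁, hk₁, t, ht, rfl⟩ := Set.mem_mul.mp hg0
    obtain ⟨i, rfl⟩ := Subgroup.mem_zpowers_iff.mp ht
    obtain ⟨j, rfl⟩ := Subgroup.mem_zpowers_iff.mp hy
    have h1 : k₁ * x ^ j = x ^ j * k₁ := hRab _ (hKR hk₁) _ hyR
    have h2 : x ^ i * x ^ j = x ^ j * x ^ i := (Commute.zpow_zpow_self x i j).eq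
    rw [mul_assoc, h2, ← mul_assoc, h1, mul_assoc]
  haveI hRmapn : (R.map (QuotientGroup.mk' K₀)).Normal :=
    hRn.map (QuotientGroup.mk' K₀) (QuotientGroup.mk'_surjective K₀)
  let C : Subgroup G :=
    (Subgroup.centralizer ((R.map (QuotientGroup.mk' K₀) : Subgroup (G ⧸ K₀)) : Set (G ⧸ K₀))).comap
      (QuotientGroup.mk' K₀)
  haveI hCn : C.Normal := Subgroup.Normal.comap inferInstance _
  have hC2 : ∀ c ∈ C, ∀ r ∈ R, c * r * c⁻¹ * r⁻¹ ∈ K₀ := by
    intro c hc r hr
    have h0 : QuotientGroup.mk' K₀ r * QuotientGroup.mk' K₀ c =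
        QuotientGroup.mk' K₀ c * QuotientGroup.mk' K₀ r :=
      Subgroup.mem_centralizer_iff.mp (Subgroup.mem_comap.mp hc) _ (Subgroup.mem_map_of_mem _ hr)
    rw [← QuotientGroup.eq_one_iff, ← QuotientGroup.mk'_apply]
    simp only [map_mul, map_inv]
    rw [← h0]; group
  have hPC : (P : Subgroup G) ≤ C := by
    intro g hg
    apply Subgroup.mem_comap.mpr
    apply Subgroup.mem_centralizer_iff.mpr
    rintro _ ⟨r, hr, rfl⟩
    have h0 : ⁅r, g⁆ ∈ K₀ := comm_mem_normal P hgen hcore hfrat K₀ hK1 (hRP hr) hg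
    have h1 : QuotientGroup.mk' K₀ ⁅r, g⁆ = 1 := (QuotientGroup.eq_one_iff _).mpr h0
    rw [map_commutatorElement] at h1
    exact commutatorElement_eq_one_iff_mul_comm.mp h1
  letI : CommGroup ↥R :=
    { (inferInstance : Group ↥R) with
      mul_comm := fun a b => Subtype.ext (hRab a a.2 b b.2) }
  let P' : Subgroup ↥C := (P : Subgroup G).subgroupOf C
  let y' : ↥R := ⟨y, hyR⟩
  let φ : ↥C → ↥R := fun c => MulAut.conjNormal (c : G) y'
  have hφ : ∀ a b : ↥C, QuotientGroup.leftRel P' a b → φ a = φ b := by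
    intro a b hab'
    rw [QuotientGroup.leftRel_apply] at hab'
    have ht : (a : G)⁻¹ * (b : G) ∈ (P : Subgroup G) := Subgroup.mem_subgroupOf.mp hab'
    have h1 : (a : G)⁻¹ * (b : G) * y * ((a : G)⁻¹ * (b : G))⁻¹ = y := by
      rw [hyc _ ht, mul_inv_cancel_right]
    apply Subtype.ext
    show ((MulAut.conjNormal (a : G) y' : ↥R) : G) = ((MulAut.conjNormal (b : G) y' : ↥R) : G)
    rw [MulAut.conjNormal_apply, MulAut.conjNormal_apply]
    show (a : G) * y * (a : G)⁻¹ = (b : G) * y * (b : G)⁻¹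
    have e : (b : G) * y * (b : G)⁻¹ =
        (a : G) * ((a : G)⁻¹ * (b : G) * y * ((a : G)⁻¹ * (b : G))⁻¹) * (a : G)⁻¹ := by group
    rw [e, h1]
  let f : ↥C ⧸ P' → ↥R := fun q => Quotient.liftOn' q φ hφ
  haveI : Fintype (↥C ⧸ P') := Fintype.ofFinite _
  let b : ↥R := ∏ q, f q
  have hb1 : ∀ c : ↥C, MulAut.conjNormal (c : G) b = b := by
    intro c
    have h0 : MulAut.conjNormal (c : G) b = ∏ q, MulAut.conjNormal (c : G) (f q) :=
      map_prod (MulAut.conjNormal (c : G) : ↥R ≃* ↥R) f Finset.univ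
    rw [h0]
    refine Fintype.prod_equiv (MulAction.toPerm c) _ _ ?_
    intro q
    refine QuotientGroup.induction_on q ?_
    intro a
    show MulAut.conjNormal (c : G) (φ a) = φ (c * a)
    show MulAut.conjNormal (c : G) (MulAut.conjNormal (a : G) y') =
      MulAut.conjNormal ((c * a : ↥C) : G) y'
    rw [Subgroup.coe_mul, map_mul, MulAut.mul_apply]
  have hfK : ∀ q : ↥C ⧸ P', ((f q : ↥R) : G) * y⁻¹ ∈ K₀ := by
    intro q
    refine QuotientGroup.induction_on q ?_
    intro a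
    show ((MulAut.conjNormal (a : G) y' : ↥R) : G) * y⁻¹ ∈ K₀
    rw [MulAut.conjNormal_apply]
    exact hC2 a a.2 y hyR
  have hprod : ∀ s : Finset (↥C ⧸ P'), ((∏ q ∈ s, f q : ↥R) : G) * (y ^ s.card)⁻¹ ∈ K₀ := by
    classical
    intro s
    induction s using Finset.induction_on with
    | empty => simp
    | insert a s ha ih =>
      rw [Finset.prod_insert ha, Finset.card_insert_of_notMem ha, Subgroup.coe_mul]
      have hBy : ((∏ q ∈ s, f q : ↥R) : G) * y⁻¹ = y⁻¹ * ((∏ q ∈ s, f q : ↥R) : G) :=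
        hRab _ (∏ q ∈ s, f q : ↥R).2 _ (R.inv_mem hyR)
      have e : ((f a : ↥R) : G) * ((∏ q ∈ s, f q : ↥R) : G) * (y ^ (s.card + 1))⁻¹ =
          (((f a : ↥R) : G) * y⁻¹) * (((∏ q ∈ s, f q : ↥R) : G) * (y ^ s.card)⁻¹) := by
        rw [pow_succ, mul_inv_rev, mul_assoc ((f a : ↥R) : G), ← mul_assoc _ y⁻¹, hBy]
        simp only [mul_assoc]
      rw [e]
      exact K₀.mul_mem (hfK a) ih
  have hbK : (b : G) ∉ K₀ := by
    intro hb
    have h1 := hprod Finset.univ
    have h2 : y ^ (Finset.univ : Finset (↥C ⧸ P')).card ∈ K₀ := by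
      have h3 : y ^ (Finset.univ : Finset (↥C ⧸ P')).card =
          ((b : G) * (y ^ (Finset.univ : Finset (↥C ⧸ P')).card)⁻¹)⁻¹ * (b : G) := by group
      rw [h3]; exact K₀.mul_mem (K₀.inv_mem h1) hb
    have hcard : (Finset.univ : Finset (↥C ⧸ P')).card = (P : Subgroup G).relIndex C := by
      rw [Finset.card_univ, ← Nat.card_eq_fintype_card]
      exact (Subgroup.index_eq_card P').symm
    rw [hcard] at h2
    have hnd : ¬ p ∣ (P : Subgroup G).relIndex C := by
      intro h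
      have h0 := Subgroup.relIndex_mul_index hPC
      exact P.not_dvd_index (h0 ▸ Dvd.dvd.mul_right h _)
    obtain ⟨n, hn⟩ := hRp y'
    have hn' : y ^ p ^ n = 1 := congrArg Subtype.val hn
    have ho1 : orderOf (QuotientGroup.mk' K₀ y) ∣ (P : Subgroup G).relIndex C := by
      apply orderOf_dvd_of_pow_eq_one
      rw [← map_pow]; exact (QuotientGroup.eq_one_iff _).mpr h2
    have ho2 : orderOf (QuotientGroup.mk' K₀ y) ∣ p ^ n := by
      apply orderOf_dvd_of_pow_eq_one
      rw [← map_pow, hn', map_one]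
    have hcop : (p ^ n).Coprime ((P : Subgroup G).relIndex C) :=
      Nat.Coprime.pow_left n ((Nat.Prime.coprime_iff_not_dvd hpp).mpr hnd)
    have ho3 : orderOf (QuotientGroup.mk' K₀ y) = 1 :=
      Nat.Coprime.eq_one_of_dvd (Nat.Coprime.coprime_dvd_left ho2 hcop) ho1
    exact hyK ((QuotientGroup.eq_one_iff y).mp (orderOf_eq_one_iff.mp ho3))
  have hbN : (b : G) ∈ R ⊓ Subgroup.centralizer (C : Set G) := by
    refine ⟨b.2, ?_⟩
    apply Subgroup.mem_centralizer_iff.mpr
    intro c hc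
    have h0 := congrArg Subtype.val (hb1 ⟨c, hc⟩)
    rw [MulAut.conjNormal_apply] at h0
    exact mul_inv_eq_iff_eq_mul.mp h0
  have hN1 : R ⊓ Subgroup.centralizer (C : Set G) ≠ ⊥ := by
    intro h
    rw [h, Subgroup.mem_bot] at hbN
    exact hbK (hbN ▸ K₀.one_mem)
  have hCK : C ≤ Subgroup.centralizer (K₀ : Set G) :=
    Subgroup.le_centralizer_iff.mp (le_trans (hKmin _ inferInstance hN1) inf_le_right)
  apply hna
  refine ⟨⟨fun a b => Subtype.ext ?_⟩⟩
  exact cent_comm K₀ hab (P : Subgroup G) x hPx a.2 (hCK (hPC a.2)) b.2 (hCK (hPC b.2))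

/-- the abelian case: `F*(G)` lies in the abelian monolith -/
theorem ab_case (P : Sylow p G) (hna : ¬ IsMulCommutative (P : Subgroup G))
    (hgen : (frattini ↥(P : Subgroup G)).index = p ^ 2)
    (hcore : Cfsg.pPrimeCore p G = ⊥)
    (hfrat : ((frattini ↥(P : Subgroup G)).map (P : Subgroup G).subtype).normalCore = ⊥)
    (K₀ : Subgroup G) [hKn : K₀.Normal] (hK1 : K₀ ≠ ⊥)
    (hKmin : ∀ N : Subgroup G, N.Normal → N ≠ ⊥ → K₀ ≤ N)
    (hab : ∀ a ∈ K₀, ∀ b ∈ K₀, a * b = b * a) :
    Cfsg.generalizedFittingSubgroup G ≤ K₀ := by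
  have hpp : p.Prime := Fact.out
  have hK0p : IsPGroup p K₀ :=
    isPGroup_of_npc hcore K₀ (npc_of_comm p (fun a b => Subtype.ext (hab a a.2 b b.2)))
  obtain ⟨x, hxP, hPx⟩ := exists_gen_normal P hgen hcore hfrat K₀ hK1
  have hKR : K₀ ≤ Subgroup.centralizer (K₀ : Set G) := by
    intro a ha
    apply Subgroup.mem_centralizer_iff.mpr
    intro b hb
    exact hab b hb a ha
  -- the centralizer of K₀ is abelian
  have hRab : ∀ a ∈ Subgroup.centralizer (K₀ : Set G), ∀ b ∈ Subgroup.centralizer (K₀ : Set G),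
      a * b = b * a := by
    by_contra hnab
    have hD1 : ⁅Subgroup.centralizer (K₀ : Set G), Subgroup.centralizer (K₀ : Set G)⁆ ≠ ⊥ := by
      intro h
      apply hnab
      intro a ha b hb
      have h0 : ⁅a, b⁆ ∈ ⁅Subgroup.centralizer (K₀ : Set G), Subgroup.centralizer (K₀ : Set G)⁆ :=
        Subgroup.commutator_mem_commutator ha hb
      rw [h, Subgroup.mem_bot] at h0
      exact commutatorElement_eq_one_iff_mul_comm.mp h0
    have hKD : K₀ ≤ ⁅Subgroup.centralizer (K₀ : Set G), Subgroup.centralizer (K₀ : Set G)⁆ :=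
      hKmin _ inferInstance hD1
    obtain ⟨z', hz'⟩ := (Subgroup.ne_bot_iff_exists_ne_one (H := K₀)).mp hK1
    obtain ⟨z, hz, hz1⟩ : ∃ z ∈ K₀, z ≠ 1 := ⟨(z' : G), z'.2, fun h => hz' (Subtype.ext h)⟩
    obtain ⟨S⟩ : Nonempty (Sylow p ↥(Subgroup.centralizer (K₀ : Set G))) := inferInstance
    have hKS : K₀.subgroupOf (Subgroup.centralizer (K₀ : Set G)) ≤ (S : Subgroup _) :=
      normal_pgroup_le_sylow S _ hK0p.comap_subtype
    have hSab : ∀ a b : (S : Subgroup ↥(Subgroup.centralizer (K₀ : Set G))), a * b = b * a := by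
      have hSp : IsPGroup p ((S : Subgroup ↥(Subgroup.centralizer (K₀ : Set G))).map
          (Subgroup.centralizer (K₀ : Set G)).subtype) := S.2.map _
      obtain ⟨Q', hQ'⟩ := hSp.exists_le_sylow
      obtain ⟨g, hg⟩ := MulAction.exists_smul_eq G Q' P
      have hconj : ∀ s : ↥(Subgroup.centralizer (K₀ : Set G)),
          s ∈ (S : Subgroup ↥(Subgroup.centralizer (K₀ : Set G))) →
          g * (s : G) * g⁻¹ ∈ (P : Subgroup G) ∧
            g * (s : G) * g⁻¹ ∈ Subgroup.centralizer (K₀ : Set G) := by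
        intro s hs
        refine ⟨?_, ?_⟩
        · have h1 : (s : G) ∈ (Q' : Subgroup G) := hQ' ⟨s, hs, rfl⟩
          have h2 : MulAut.conj g • (s : G) ∈ MulAut.conj g • (Q' : Subgroup G) :=
            Subgroup.smul_mem_pointwise_smul _ _ _ h1
          rw [← hg, Sylow.smul_def, Sylow.pointwise_smul_def]
          simpa [MulAut.smul_def, MulAut.conj_apply] using h2
        · exact (inferInstance : (Subgroup.centralizer (K₀ : Set G)).Normal).conj_mem _ s.2 g
      intro a b
      have ha := hconj a a.2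
      have hb := hconj b b.2
      have h0 := cent_comm K₀ hab (P : Subgroup G) x hPx ha.1 ha.2 hb.1 hb.2
      have h1 : ((a : ↥(Subgroup.centralizer (K₀ : Set G))) : G) *
          ((b : ↥(Subgroup.centralizer (K₀ : Set G))) : G) =
          ((b : ↥(Subgroup.centralizer (K₀ : Set G))) : G) *
          ((a : ↥(Subgroup.centralizer (K₀ : Set G))) : G) := by
        have e1 : g * ((a : ↥(Subgroup.centralizer (K₀ : Set G))) : G) * g⁻¹ *
            (g * ((b : ↥(Subgroup.centralizer (K₀ : Set G))) : G) * g⁻¹) =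
            g * (((a : ↥(Subgroup.centralizer (K₀ : Set G))) : G) *
              ((b : ↥(Subgroup.centralizer (K₀ : Set G))) : G)) * g⁻¹ := by group
        have e2 : g * ((b : ↥(Subgroup.centralizer (K₀ : Set G))) : G) * g⁻¹ *
            (g * ((a : ↥(Subgroup.centralizer (K₀ : Set G))) : G) * g⁻¹) =
            g * (((b : ↥(Subgroup.centralizer (K₀ : Set G))) : G) *
              ((a : ↥(Subgroup.centralizer (K₀ : Set G))) : G)) * g⁻¹ := by group
        rw [e1, e2] at h0
        exact mul_left_cancel (mul_right_cancel h0)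
      exact Subtype.ext (Subtype.ext h1)
    have hzR : z ∈ Subgroup.centralizer (K₀ : Set G) := hKR hz
    have hzS : (⟨z, hzR⟩ : ↥(Subgroup.centralizer (K₀ : Set G))) ∈
        (S : Subgroup ↥(Subgroup.centralizer (K₀ : Set G))) :=
      hKS (Subgroup.mem_subgroupOf.mpr hz)
    have hzZ : (⟨z, hzR⟩ : ↥(Subgroup.centralizer (K₀ : Set G))) ∈
        Subgroup.center ↥(Subgroup.centralizer (K₀ : Set G)) := by
      apply Subgroup.mem_center_iff.mpr
      intro g
      apply Subtype.ext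
      exact (Subgroup.mem_centralizer_iff.mp g.2 z hz).symm
    have hzC : (⟨z, hzR⟩ : ↥(Subgroup.centralizer (K₀ : Set G))) ∈
        commutator ↥(Subgroup.centralizer (K₀ : Set G)) := by
      have h0 := hKD hz
      rw [← Subgroup.map_subtype_commutator] at h0
      obtain ⟨w, hw, hwz⟩ := h0
      have h1 : w = ⟨z, hzR⟩ := Subtype.ext hwz
      rw [← h1]; exact hw
    have h2 := central_comm_sylow S hSab _ hzS hzZ hzC
    exact hz1 (congrArg Subtype.val h2)
  have hRp : IsPGroup p (Subgroup.centralizer (K₀ : Set G)) :=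
    isPGroup_of_npc hcore _ (npc_of_comm p (fun a b => Subtype.ext (hRab a a.2 b b.2)))
  have hRK : Subgroup.centralizer (K₀ : Set G) ≤ K₀ :=
    eps P hna hgen hcore hfrat K₀ hK1 hKmin hab _ hRab hRp hKR
  have hlayer : Cfsg.layer G ≤ Subgroup.centralizer (K₀ : Set G) := by
    rw [← Subgroup.commutator_eq_bot_iff_le_centralizer]
    exact helper7.layer_comm_solvable_normal K₀
      (helper7.solvable_of_isMulComm ⟨⟨fun a b => Subtype.ext (hab a a.2 b b.2)⟩⟩)
  have hfit : Cfsg.fittingSubgroup G ≤ Subgroup.centralizer (K₀ : Set G) := by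
    by_cases hF1 : Cfsg.fittingSubgroup G = ⊥
    · rw [hF1]; exact bot_le
    · haveI hnil := helper7.fitting_nilpotent G
      haveI : Nontrivial ↥(Cfsg.fittingSubgroup G) :=
        (Subgroup.nontrivial_iff_ne_bot _).mpr hF1
      have hZ := Group.IsNilpotent.center_ne_bot ↥(Cfsg.fittingSubgroup G)
      have hZ1 : Cfsg.fittingSubgroup G ⊓
          Subgroup.centralizer (Cfsg.fittingSubgroup G : Set G) ≠ ⊥ := by
        intro h
        apply hZ
        rw [eq_bot_iff]
        intro w hw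
        have h0 : (w : G) ∈ Cfsg.fittingSubgroup G ⊓
            Subgroup.centralizer (Cfsg.fittingSubgroup G : Set G) := by
          refine ⟨w.2, ?_⟩
          apply Subgroup.mem_centralizer_iff.mpr
          intro g hg
          have h1 := Subgroup.mem_center_iff.mp hw ⟨g, hg⟩
          exact congrArg Subtype.val h1
        rw [h, Subgroup.mem_bot] at h0
        exact Subgroup.mem_bot.mpr (Subtype.ext h0)
      exact Subgroup.le_centralizer_iff.mp (le_trans (hKmin _ inferInstance hZ1) inf_le_right)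
  unfold Cfsg.generalizedFittingSubgroup
  exact le_trans (sup_le hlayer hfit) hRK

end Cfsg.Agent.Lib.helper20.Mono
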