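import Mathlib
import Cfsg.Agent.Lib.helper20.ClassSize

set_option autoImplicit false

namespace Cfsg.Agent.Lib.helper20

universe u

/-- all prime divisors of the order lie in `S` -/
def IsPiElt {G : Type u} [Group G] (S : Finset ℕ) (g : G) : Prop :=
  ∀ q : ℕ, q.Prime → q ∣ orderOf g → q ∈ S

/-- classes of `S`-elements -/
def PiClasses (G : Type u) [Group G] (S : Finset ℕ) : Type u :=
  {C : ConjClasses G // ∃ g : G, ConjClasses.mk g = C ∧ IsPiElt S g}

instance (G : Type u) [Group G] [Finite G] (S : Finset ℕ) : Finite (PiClasses G S) := by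
  unfold PiClasses; infer_instance

theorem orderOf_conj' {G : Type u} [Group G] (d x : G) : orderOf (d * x * d⁻¹) = orderOf x :=
  orderOf_injective (MulAut.conj d).toMonoidHom (MulAut.conj d).injective x

/-- the relation used to define the injection -/
def PiRel {G : Type u} [Group G] {p : ℕ} (P : Sylow p G) (S : Finset ℕ)
    (a : Σ u : (P : Subgroup G), PiClasses (Subgroup.centralizer ({(u : G)} : Set G)) S)
    (C : ConjClasses G) : Prop :=
  ∃ v : G, ∃ hv : v ∈ Subgroup.centralizer ({(a.1 : G)} : Set G),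
    a.2.1 = ConjClasses.mk ⟨v, hv⟩ ∧ ConjClasses.mk ((a.1 : G) * v) = C

theorem piRel_unique {G : Type u} [Group G] {p : ℕ} (P : Sylow p G) (S : Finset ℕ)
    (a : Σ u : (P : Subgroup G), PiClasses (Subgroup.centralizer ({(u : G)} : Set G)) S)
    (C C' : ConjClasses G) (h : PiRel P S a C) (h' : PiRel P S a C') : C = C' := by
  obtain ⟨v, hv, h1, h2⟩ := h
  obtain ⟨v', hv', h1', h2'⟩ := h'
  have h3 : ConjClasses.mk (⟨v, hv⟩ : Subgroup.centralizer ({(a.1 : G)} : Set G)) =
      ConjClasses.mk ⟨v', hv'⟩ := h1.symm.trans h1'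
  rw [ConjClasses.mk_eq_mk_iff_isConj, isConj_iff] at h3
  obtain ⟨c, hc⟩ := h3
  have hc' : (c : G) * v * (c : G)⁻¹ = v' := congrArg Subtype.val hc
  have hcu : (a.1 : G) * (c : G) = (c : G) * (a.1 : G) := by
    have := c.2
    rw [Subgroup.mem_centralizer_iff] at this
    exact this _ (Set.mem_singleton _)
  rw [← h2, ← h2', ConjClasses.mk_eq_mk_iff_isConj, isConj_iff]
  refine ⟨c, ?_⟩
  rw [← hc']
  calc (c : G) * ((a.1 : G) * v) * (c : G)⁻¹ = ((c : G) * (a.1 : G)) * v * (c : G)⁻¹ := by group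
    _ = ((a.1 : G) * (c : G)) * v * (c : G)⁻¹ := by rw [hcu]
    _ = (a.1 : G) * ((c : G) * v * (c : G)⁻¹) := by group

theorem piRel_exists {G : Type u} [Group G] [Finite G] {p : ℕ} [Fact p.Prime] (P : Sylow p G)
    (S : Finset ℕ) (hpS : p ∉ S) (C : PiClasses G (insert p S)) :
    ∃ a : Σ u : (P : Subgroup G), PiClasses (Subgroup.centralizer ({(u : G)} : Set G)) S,
      PiRel P S a C.1 := by
  obtain ⟨C, x, rfl, hx⟩ := C
  obtain ⟨u₀, v₀, hxuv, huv, hu, hv, hu₀, hv₀⟩ := exists_p_decomp p x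
  obtain ⟨d, hd⟩ := exists_conj_mem_sylow P u₀ hu
  have hvc : d * v₀ * d⁻¹ ∈ Subgroup.centralizer ({d * u₀ * d⁻¹} : Set G) := by
    rw [Subgroup.mem_centralizer_iff]
    intro y hy
    rw [Set.mem_singleton_iff] at hy
    rw [hy]
    calc d * u₀ * d⁻¹ * (d * v₀ * d⁻¹) = d * (u₀ * v₀) * d⁻¹ := by group
      _ = d * (v₀ * u₀) * d⁻¹ := by rw [huv]
      _ = d * v₀ * d⁻¹ * (d * u₀ * d⁻¹) := by group
  have hpi : IsPiElt S (⟨d * v₀ * d⁻¹, hvc⟩ : Subgroup.centralizer ({d * u₀ * d⁻¹} : Set G)) := by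
    intro q hq hqdvd
    rw [Subgroup.orderOf_mk, orderOf_conj'] at hqdvd
    have h1 : q ∣ orderOf x := hqdvd.trans (orderOf_dvd_of_mem_zpowers hv₀)
    have h2 := hx q hq h1
    rw [Finset.mem_insert] at h2
    rcases h2 with rfl | h2
    · exfalso
      have := Nat.dvd_gcd hqdvd (dvd_refl q)
      rw [hv] at this
      exact hq.one_lt.ne' (Nat.dvd_one.mp this)
    · exact h2
  refine ⟨⟨⟨d * u₀ * d⁻¹, hd⟩, ⟨ConjClasses.mk ⟨d * v₀ * d⁻¹, hvc⟩, ⟨_, rfl, hpi⟩⟩⟩,
    d * v₀ * d⁻¹, hvc, rfl, ?_⟩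
  show ConjClasses.mk (d * u₀ * d⁻¹ * (d * v₀ * d⁻¹)) = ConjClasses.mk x
  rw [ConjClasses.mk_eq_mk_iff_isConj, isConj_iff]
  refine ⟨d⁻¹, ?_⟩
  rw [hxuv]; group

theorem card_piClasses_le (S : Finset ℕ) (hS : ∀ p ∈ S, p.Prime) :
    ∀ (G : Type u) [Group G] [Finite G],
      Nat.card (PiClasses G S) ≤ ∏ p ∈ S, p ^ (Nat.card G).factorization p := by
  classical
  induction S using Finset.induction_on with
  | empty =>
    intro G _ _
    rw [Finset.prod_empty]
    rw [Finite.card_le_one_iff_subsingleton]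
    constructor
    rintro ⟨C, x, rfl, hx⟩ ⟨C', y, rfl, hy⟩
    have h1 : ∀ z : G, IsPiElt ∅ z → z = 1 := by
      intro z hz
      have : orderOf z = 1 := by
        rw [Nat.eq_one_iff_not_exists_prime_dvd]
        intro q hq hd
        exact absurd (hz q hq hd) (Finset.notMem_empty q)
      exact orderOf_eq_one_iff.mp this
    apply Subtype.ext
    show ConjClasses.mk x = ConjClasses.mk y
    rw [h1 x hx, h1 y hy]
  | insert p S hpS ih =>
    intro G _ _
    have hp : p.Prime := hS p (Finset.mem_insert_self p S)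
    have hpf : Fact p.Prime := ⟨hp⟩
    have hS' : ∀ q ∈ S, q.Prime := fun q hq => hS q (Finset.mem_insert_of_mem hq)
    let P : Sylow p G := default
    let Φ : PiClasses G (insert p S) →
        Σ u : (P : Subgroup G), PiClasses (Subgroup.centralizer ({(u : G)} : Set G)) S :=
      fun C => Classical.choose (piRel_exists P S hpS C)
    have hΦ : Function.Injective Φ := by
      intro C C' hCC'
      have h1 := Classical.choose_spec (piRel_exists P S hpS C)
      have h2 := Classical.choose_spec (piRel_exists P S hpS C')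
      have h3 : Classical.choose (piRel_exists P S hpS C) =
          Classical.choose (piRel_exists P S hpS C') := hCC'
      rw [← h3] at h2
      exact Subtype.ext (piRel_unique P S _ _ _ h1 h2)
    have hfin : Fintype (P : Subgroup G) := Fintype.ofFinite _
    have hle := Nat.card_le_card_of_injective Φ hΦ
    rw [Nat.card_sigma] at hle
    refine hle.trans ?_
    rw [Finset.prod_insert hpS]
    have hbound : ∀ u : (P : Subgroup G),
        Nat.card (PiClasses (Subgroup.centralizer ({(u : G)} : Set G)) S) ≤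
          ∏ q ∈ S, q ^ (Nat.card G).factorization q := by
      intro u
      refine (ih hS' _).trans ?_
      apply Finset.prod_le_prod'
      intro q hq
      apply Nat.pow_le_pow_right (hS' q hq).pos
      have hdvd : Nat.card (Subgroup.centralizer ({(u : G)} : Set G)) ∣ Nat.card G :=
        Subgroup.card_subgroup_dvd_card _
      exact (Nat.factorization_le_iff_dvd Nat.card_pos.ne' Nat.card_pos.ne').mpr hdvd q
    calc ∑ u : (P : Subgroup G), Nat.card (PiClasses (Subgroup.centralizer ({(u : G)} : Set G)) S)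
        ≤ ∑ _u : (P : Subgroup G), ∏ q ∈ S, q ^ (Nat.card G).factorization q :=
          Finset.sum_le_sum (fun u _ => hbound u)
      _ = p ^ (Nat.card G).factorization p * ∏ q ∈ S, q ^ (Nat.card G).factorization q := by
          rw [Finset.sum_const, Finset.card_univ, smul_eq_mul, ← Nat.card_eq_fintype_card,
            Sylow.card_eq_multiplicity]

end Cfsg.Agent.Lib.helper20
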